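import Cfsg.Agent.H153.Dl.RFi22

/-!
# An element of order 16 in `Fi22` : the words (helper153)

Generated data.
-/

set_option autoImplicit false
set_option maxRecDepth 100000
set_option Elab.async false

namespace Cfsg.Agent.H153.Dl.E22

open Cfsg Cfsg.Agent.Lib.PermNetPt Cfsg.Agent.H153.Dl Cfsg.Agent.H153.Dl.PR
open Cfsg.Spor.Fi22 (Gen)

def xw : List Gen := [.h, .e, .a, .g, .f, .i, .d, .c, .e, .d, .b, .h, .c, .d, .i]

def u : List Gen := []

end Cfsg.Agent.H153.Dl.E22
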